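import Cfsg.Agent.P83.Cert.T1080D

set_option autoImplicit false
set_option maxRecDepth 100000
set_option Elab.async false

namespace Cfsg.Agent.P83.T1080

open Cfsg.Agent.H58

theorem d0 : sumPow (grd 21804 (defn tbl rnk (okPair iv))) 12 0 = 0 := by decide +kernel
theorem d1 : sumPow (grd 21804 (defn tbl rnk (okPair iv))) 12 1 = 0 := by decide +kernel
theorem d2 : sumPow (grd 21804 (defn tbl rnk (okPair iv))) 12 2 = 0 := by decide +kernel
theorem d3 : sumPow (grd 21804 (defn tbl rnk (okPair iv))) 12 3 = 0 := by decide +kernel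
theorem d4 : sumPow (grd 21804 (defn tbl rnk (okPair iv))) 12 4 = 0 := by decide +kernel
theorem d5 : sumPow (grd 21804 (defn tbl rnk (okPair iv))) 12 5 = 0 := by decide +kernel
theorem s0 : sumPow (grd 2274 (chunk tbl (okRule iv tree) str 690)) 8 0 = 0 := by decide +kernel
theorem s1 : sumPow (grd 2274 (chunk tbl (okRule iv tree) str 690)) 8 1 = 0 := by decide +kernel
theorem s2 : sumPow (grd 2274 (chunk tbl (okRule iv tree) str 690)) 8 2 = 0 := by decide +kernel
theorem s3 : sumPow (grd 2274 (chunk tbl (okRule iv tree) str 690)) 8 3 = 0 := by decide +kernel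
theorem s4 : sumPow (grd 2274 (chunk tbl (okRule iv tree) str 690)) 8 4 = 0 := by decide +kernel
theorem s5 : sumPow (grd 2274 (chunk tbl (okRule iv tree) str 690)) 8 5 = 0 := by decide +kernel
theorem s6 : sumPow (grd 2274 (chunk tbl (okRule iv tree) str 690)) 8 6 = 0 := by decide +kernel
theorem s7 : sumPow (grd 2274 (chunk tbl (okRule iv tree) str 690)) 8 7 = 0 := by decide +kernel
theorem s8 : sumPow (grd 2274 (chunk tbl (okRule iv tree) str 690)) 8 8 = 0 := by decide +kernel
theorem c0 : sumPow (clchunk tbl clo 189695 69119 9 27606989912299849082878004761654520404766027018339184779892963298770945) 9 0 = 0 := by decide +kernel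

end Cfsg.Agent.P83.T1080
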