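import Cfsg.Agent.H88.TCW
import Cfsg.Agent.P83.Cert.T1080C0

set_option autoImplicit false
set_option maxRecDepth 100000
set_option Elab.async false

namespace Cfsg.Agent.P83.T1080

open Cfsg.Agent.H58

noncomputable def C : Cert := ⟨tbl, rnk, str, clo, tree, 21804, 20, 690, 2274, [1, 2, 3, 4, 5, 6, 8, 11]⟩

theorem good : C.Good rels iv :=
  ⟨by decide, by decide +kernel,
   all_lt_of_gblocks _ 12 21804 6 (by decide) (blocks_cons (blocks_cons (blocks_cons (blocks_cons (blocks_cons (blocks_cons (blocks_nil _) d0) d1) d2) d3) d4) d5),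
   by decide +kernel,
   all_lt_of_gblocks _ 8 2274 9 (by decide) (blocks_cons (blocks_cons (blocks_cons (blocks_cons (blocks_cons (blocks_cons (blocks_cons (blocks_cons (blocks_cons (blocks_nil _) s0) s1) s2) s3) s4) s5) s6) s7) s8)⟩

theorem closed : C.Closed [1, 2, 3, 4, 5, 6, 8, 10, 11] 1079 :=
  ⟨by decide, by decide, 189695, 69119, 9, 27606989912299849082878004761654520404766027018339184779892963298770945, by decide, by decide, by decide +kernel,
    all_lt_of_blocks _ 9 135 1 (by decide) (blocks_cons (blocks_nil _) c0)⟩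

theorem relIndex_le {G : Type*} [Group G] {el : ℕ → G} (R : RuleOK el rels iv) (H : Subgroup G)
    (hfix : ∀ x ∈ ([1, 2, 3, 4, 5, 6, 8, 11] : List ℕ), el x ∈ H) :
    H.relIndex (Subgroup.closure (el '' {x | x ∈ ([1, 2, 3, 4, 5, 6, 8, 10, 11] : List ℕ)})) ≠ 0 ∧
      H.relIndex (Subgroup.closure (el '' {x | x ∈ ([1, 2, 3, 4, 5, 6, 8, 10, 11] : List ℕ)})) ≤ 1080 :=
  Cert.relIndex_le good closed R H hfix


end Cfsg.Agent.P83.T1080
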